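import Groth.Agent.CalgB.QuasiRegularAppend
import Groth.Agent.CalgB.H1OfRegular
import Mathlib.RingTheory.Regular.RegularSequence

/-!
# `J ∩ Rⁿ = J Rⁿ` for an ideal `R` generated by a sequence which is weakly regular on `A/J`
-/

set_option autoImplicit false

universe u

namespace Groth.Agent.Ega4late.H524.InfPow

open RingTheory.Sequence

variable {A : Type u} [CommRing A]

/-- A sequence weakly regular on `A/J` has an `H_1`-regular image in `A/J`. -/
theorem isH1Regular_mk (J : Ideal A) {r : ℕ} (f : Fin r → A)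
    (hf : IsWeaklyRegular (A ⧸ J) (List.ofFn f)) :
    CAlgX.IsH1Regular (fun j => Ideal.Quotient.mk J (f j)) := by
  apply Groth.Agent.CalgB.H1OfRegular.isH1Regular_of_isWeaklyRegular
  have h : List.ofFn (fun j => Ideal.Quotient.mk J (f j)) =
      (List.ofFn f).map (algebraMap A (A ⧸ J)) := by
    rw [List.map_ofFn]
    rfl
  rw [h, isWeaklyRegular_map_algebraMap_iff]
  exact hf

/-- **No Noetherian hypothesis**: if `f` is weakly regular on `A/J` and `R = (f)` then `J ∩ Rⁿ = J Rⁿ`. -/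
theorem inf_pow_eq_mul_pow (J : Ideal A) {r : ℕ} (f : Fin r → A)
    (hf : IsWeaklyRegular (A ⧸ J) (List.ofFn f)) (n : ℕ) :
    J ⊓ Ideal.span (Set.range f) ^ n = J * Ideal.span (Set.range f) ^ n :=
  le_antisymm
    (Groth.Agent.CalgB.QuasiRegularAppend.inf_pow_le_mul_pow f J (isH1Regular_mk J f hf) n)
    Ideal.mul_le_inf

/-- `J ∩ Q² = J Q` for `Q = J + R`, as soon as `J ∩ R² = J R²`. -/
theorem inf_sup_sq_eq (J R : Ideal A) (h : J ⊓ R ^ 2 = J * R ^ 2) :
    J ⊓ (J ⊔ R) ^ 2 = J * (J ⊔ R) := by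
  have h1 : (J ⊔ R) ^ 2 = J * (J ⊔ R) ⊔ R ^ 2 := by
    rw [sq, Ideal.sup_mul, Ideal.mul_sup J, Ideal.mul_sup R, sq, Ideal.mul_comm R J]
    apply le_antisymm
    · exact sup_le le_sup_left (sup_le (le_sup_right.trans le_sup_left) le_sup_right)
    · exact sup_le le_sup_left (le_sup_right.trans le_sup_right)
  have h2 : J * (J ⊔ R) ≤ J := Ideal.mul_le_left
  rw [h1, sup_comm, ← inf_sup_assoc_of_le (R ^ 2) h2, h, sup_eq_right]
  rw [sq, ← mul_assoc]
  exact Ideal.mul_mono Ideal.mul_le_left le_sup_right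

end Groth.Agent.Ega4late.H524.InfPow
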